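import Mathlib

/-!
The abstract core of the two-generator argument: families `Y`, `Y'` of elements of a group, with parameters in a
field, additive, permuted by `n` and normalised by `h`.
-/

set_option autoImplicit false

namespace Cfsg.Agent.Lib.ChevTwo.Abs

variable {G : Type*} [Group G] {K : Type*} [Field K]

/-- From `Y c₀ ∈ S` and an element of `S` scaling the family by a generator of the units, the whole family. -/
theorem all_of_gen (S : Subgroup G) (Y : K → G) {g : G} (hg : g ∈ S) {χ : Kˣ}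
    (hconj : ∀ t, g * Y t * g⁻¹ = Y ((χ : K) * t)) (hY0 : Y 0 = 1)
    (hχ : ∀ u : Kˣ, u ∈ Subgroup.zpowers χ) {c₀ : K} (hc₀ : c₀ ≠ 0) (h0 : Y c₀ ∈ S) : ∀ t, Y t ∈ S := by
  let A : Subgroup Kˣ :=
    { carrier := {u | ∃ g' ∈ S, ∀ t, g' * Y t * g'⁻¹ = Y ((u : K) * t)}
      one_mem' := ⟨1, S.one_mem, by simp⟩
      mul_mem' := by
        rintro u v ⟨g₁, hg₁, e₁⟩ ⟨g₂, hg₂, e₂⟩
        refine ⟨g₁ * g₂, S.mul_mem hg₁ hg₂, fun t => ?_⟩
        have e : g₁ * g₂ * Y t * (g₁ * g₂)⁻¹ = g₁ * (g₂ * Y t * g₂⁻¹) * g₁⁻¹ := by group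
        rw [e, e₂, e₁]
        simp [mul_assoc]
      inv_mem' := by
        rintro u ⟨g₁, hg₁, e₁⟩
        refine ⟨g₁⁻¹, S.inv_mem hg₁, fun t => ?_⟩
        have e := e₁ ((u⁻¹ : Kˣ) * t)
        have e2 : (u : K) * (((u⁻¹ : Kˣ) : K) * t) = t := by
          rw [← mul_assoc, ← Units.val_mul]
          simp
        rw [e2] at e
        rw [← e]
        group }
  have hA : Subgroup.zpowers χ ≤ A := by
    rw [Subgroup.zpowers_le]
    exact ⟨g, hg, hconj⟩
  intro t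
  by_cases ht : t = 0
  · rw [ht, hY0]
    exact S.one_mem
  · obtain ⟨g', hg', e⟩ := hA (hχ (Units.mk0 (t / c₀) (div_ne_zero ht hc₀)))
    have e2 := e c₀
    simp only [Units.val_mk0] at e2
    rw [div_mul_cancel₀ _ hc₀] at e2
    rw [← e2]
    exact S.mul_mem (S.mul_mem hg' h0) (S.inv_mem hg')

/-- The core: `a = n Y(1)`, `h` in `S` give `n` and the families `Y`, `Y'` in `S`. -/
theorem core (S : Subgroup G) (Y Y' : K → G) (hY : ∀ a b, Y a * Y b = Y (a + b))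
    (hY' : ∀ a b, Y' a * Y' b = Y' (a + b)) (hY0 : Y 0 = 1) (hY'0 : Y' 0 = 1) {n h : G} {c χ ψ : K}
    (hn : ∀ t, n * Y t * n⁻¹ = Y' (c * t)) (hc : c ≠ 0)
    (hhY : ∀ t, h * Y t * h⁻¹ = Y (χ * t)) {ψu : Kˣ} (hψu : (ψu : K) = ψ)
    (hhY' : ∀ t, h * Y' t * h⁻¹ = Y' (ψ * t))
    (hcomm : (n * h * n⁻¹) * h = h * (n * h * n⁻¹)) (hχ : χ ≠ 1) (hψ : ψ ≠ 1)
    (hgen : ∀ u : Kˣ, u ∈ Subgroup.zpowers ψu) (ha : n * Y 1 ∈ S) (hh : h ∈ S) :
    n ∈ S ∧ (∀ t, Y t ∈ S) ∧ (∀ t, Y' t ∈ S) := by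
  have hinv : ∀ t, (Y t)⁻¹ = Y (-t) := fun t =>
    inv_eq_of_mul_eq_one_right (by rw [hY, add_neg_cancel, hY0])
  have hinv' : ∀ t, (Y' t)⁻¹ = Y' (-t) := fun t =>
    inv_eq_of_mul_eq_one_right (by rw [hY', add_neg_cancel, hY'0])
  set y := Y 1 with hy
  set m := n * h * n⁻¹ with hm
  have e1 : y * h * y⁻¹ = Y (1 - χ) * h := by
    have e2 : h * y⁻¹ = Y (-χ) * h := by
      rw [hy, hinv]
      have := hhY (-1)
      rw [mul_neg_one] at this
      rw [← this]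
      group
    calc y * h * y⁻¹ = y * (h * y⁻¹) := by group
      _ = Y (1 - χ) * h := by
        rw [e2, ← mul_assoc, hy, hY, sub_eq_add_neg]
  have hz : (n * y) * h * (n * y)⁻¹ = Y' (c * (1 - χ)) * m := by
    calc (n * y) * h * (n * y)⁻¹ = n * (y * h * y⁻¹) * n⁻¹ := by group
      _ = n * (Y (1 - χ) * h) * n⁻¹ := by rw [e1]
      _ = (n * Y (1 - χ) * n⁻¹) * m := by rw [hm]; group
      _ = Y' (c * (1 - χ)) * m := by rw [hn]
  have hzS : Y' (c * (1 - χ)) * m ∈ S := by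
    rw [← hz]
    exact S.mul_mem (S.mul_mem ha hh) (S.inv_mem ha)
  set δ : K := c * (1 - χ) with hδ
  have hcm : (Y' δ * m) * h * (Y' δ * m)⁻¹ * h⁻¹ = Y' (δ * (1 - ψ)) := by
    have e1 : (Y' δ * m) * h * (Y' δ * m)⁻¹ = Y' δ * h * (Y' δ)⁻¹ := by
      calc (Y' δ * m) * h * (Y' δ * m)⁻¹ = Y' δ * (m * h) * m⁻¹ * (Y' δ)⁻¹ := by group
        _ = Y' δ * h * (Y' δ)⁻¹ := by rw [hcomm]; group
    rw [e1]
    calc Y' δ * h * (Y' δ)⁻¹ * h⁻¹ = Y' δ * (h * (Y' δ)⁻¹ * h⁻¹) := by group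
      _ = Y' (δ * (1 - ψ)) := by
        rw [hinv', hhY', hY']
        congr 1
        ring
  have hxS : Y' (δ * (1 - ψ)) ∈ S := by
    rw [← hcm]
    exact S.mul_mem (S.mul_mem (S.mul_mem hzS hh) (S.inv_mem hzS)) (S.inv_mem hh)
  have hd0 : δ * (1 - ψ) ≠ 0 :=
    mul_ne_zero (mul_ne_zero hc (sub_ne_zero.mpr hχ.symm)) (sub_ne_zero.mpr hψ.symm)
  have hQ' : ∀ t, Y' t ∈ S :=
    all_of_gen S Y' hh (χ := ψu) (fun t => by rw [hψu]; exact hhY' t) hY'0 hgen hd0 hxS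
  have hQ : ∀ t, Y t ∈ S := by
    intro t
    have e : Y t = (n * y)⁻¹ * Y' (c * t) * (n * y) := by
      rw [← hn t]
      have : y⁻¹ * Y t * y = Y t := by
        rw [hy, hinv, hY, hY]
        congr 1
        ring
      calc Y t = y⁻¹ * Y t * y := this.symm
        _ = _ := by group
    rw [e]
    exact S.mul_mem (S.mul_mem (S.inv_mem ha) (hQ' _)) ha
  refine ⟨?_, hQ, hQ'⟩
  have := S.mul_mem ha (S.inv_mem (hQ 1))
  rwa [mul_inv_cancel_right] at this

/-- The commutator of two products. -/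
lemma comm_sss {A A' B B' C D : G} (hAB' : B' * A = A * B') (hA'B : B * A' = A' * B) (hBA : B * A = A * B * C)
    (hB'A' : B' * A' = A' * B' * D) (hCB' : C * B' = B' * C) (hCA' : C * A' = A' * C) :
    (B * B') * (A * A') = (A * A') * (B * B') * (D * C) :=
  calc (B * B') * (A * A') = B * (B' * A) * A' := by group
    _ = (B * A) * B' * A' := by rw [hAB']; group
    _ = A * B * (C * B') * A' := by rw [hBA]; group
    _ = A * B * B' * (C * A') := by rw [hCB']; group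
    _ = A * B * (B' * A') * C := by rw [hCA']; group
    _ = A * (B * A') * B' * D * C := by rw [hB'A']; group
    _ = (A * A') * (B * B') * (D * C) := by rw [hA'B]; group

/-- The commutator of two products, second form. -/
lemma comm_ssl {A A' B B' C D : G} (hAB : B * A = A * B) (hA'B' : B' * A' = A' * B')
    (hB'A : B' * A = A * B' * C) (hBA' : B * A' = A' * B * D) (hCA' : C * A' = A' * C) (hDB' : D * B' = B' * D) :
    (B * B') * (A * A') = (A * A') * (B * B') * (D * C) :=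
  calc (B * B') * (A * A') = B * (B' * A) * A' := by group
    _ = (B * A) * B' * (C * A') := by rw [hB'A]; group
    _ = A * B * B' * (A' * C) := by rw [hAB, hCA']
    _ = A * B * (B' * A') * C := by group
    _ = A * (B * A') * B' * C := by rw [hA'B']; group
    _ = A * A' * B * (D * B') * C := by rw [hBA']; group
    _ = (A * A') * (B * B') * (D * C) := by rw [hDB']; group

end Cfsg.Agent.Lib.ChevTwo.Abs
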