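import Cfsg.Agent.Lib.ChevTwo.Abs
import Cfsg.Agent.Lib.Twisted.E6c
import Cfsg.Agent.Lib.Twisted.E6H

/-!
²E₆(q) is generated by two elements: `a = n Y_r(1)`, `b = h_{p₁}(c) h_{p₆}(c̄)`.
-/

set_option autoImplicit false
set_option linter.unusedSectionVars false
set_option linter.unusedVariables false
set_option linter.ambiguousOpen false

namespace Cfsg.Agent.Lib.ChevTwo.E6Tw

open scoped MatrixGroups Matrix
open Cfsg Lie ChevalleyDatum
open Cfsg.Agent.Lib.Chev
open Tables Tables2 Tables3 Raise Basic AxBasic Torus Products Products2 Mono1 Mono2 Mono3 Bn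
open Cfsg.Agent.Lib.Twisted.Tw Cfsg.Agent.Lib.Twisted.Check Cfsg.Agent.Lib.Twisted.Ortho
open Cfsg.Agent.Lib.Twisted.E6

/-- `S` contains the element `k₀`, twisted form of the transfer to the subgroup. -/
lemma exists_two_of_le {G : Type*} [Group G] (H : Subgroup G) {a b : G} (ha : a ∈ H) (hb : b ∈ H)
    (hle : H ≤ Subgroup.closure {a, b}) : ∃ a b : ↥H, Subgroup.closure ({a, b} : Set ↥H) = ⊤ := by
  refine ⟨⟨a, ha⟩, ⟨b, hb⟩, ?_⟩
  apply Subgroup.map_injective H.subtype_injective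
  rw [MonoidHom.map_closure, Set.image_pair, ← MonoidHom.range_eq_map, Subgroup.range_subtype]
  apply le_antisymm
  · rw [Subgroup.closure_le]
    rintro x (rfl | rfl)
    · exact ha
    · exact hb
  · exact hle

theorem rho_lt : ∀ r, r < chevE6.nroots → Se.ρ r < chevE6.nroots := Se.ρ_lt

theorem rho_rho : ∀ r, r < chevE6.nroots → Se.ρ (Se.ρ r) = r := by decide +kernel

theorem gam_rho : ∀ r, r < chevE6.nroots → Se.γ (Se.ρ r) = Se.γ r := by decide +kernel

variable {K : Type*} [Field K] {q : ℕ} (φ : K ≃+* K) (ax : Ax chevE6 K)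

/-- The sign of a root as an element of the field. -/
def gm (r : ℕ) : K := ((Se.γ r : ℤ) : K)

lemma gm_sq (r : ℕ) : gm (K := K) r * gm r = 1 := by
  have := congrArg (Int.cast (R := K)) (Se.γ_sq r)
  simpa [gm] using this

lemma gm_φ (r : ℕ) : φ (gm r) = gm r := map_intCast φ _

lemma s_xG {r : ℕ} (hr : r < chevE6.nroots) (t : K) :
    (twE φ ax).s (xG ax r t) = xG ax (Se.ρ r) (gm r * φ t) := (twE φ ax).s_x ⟨r, hr⟩ t

/-- The root elements of the twisted group, for a root not fixed by the symmetry. -/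
def Y (r : ℕ) (t : K) : GL chevE6.Idx K := xG ax r t * xG ax (Se.ρ r) (gm r * φ t)

lemma Y_zero (r : ℕ) : Y φ ax r 0 = 1 := by simp [Y]

lemma Y_add {r : ℕ} (H : CommPair chevE6 r (Se.ρ r)) (a b : K) : Y φ ax r a * Y φ ax r b = Y φ ax r (a + b) := by
  simp only [Y]
  calc xG ax r a * xG ax (Se.ρ r) (gm r * φ a) * (xG ax r b * xG ax (Se.ρ r) (gm r * φ b))
      = xG ax r a * (xG ax (Se.ρ r) (gm r * φ a) * xG ax r b) * xG ax (Se.ρ r) (gm r * φ b) := by group
    _ = xG ax r a * (xG ax r b * xG ax (Se.ρ r) (gm r * φ a)) * xG ax (Se.ρ r) (gm r * φ b) := by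
        rw [H.comm ax]
    _ = (xG ax r a * xG ax r b) * (xG ax (Se.ρ r) (gm r * φ a) * xG ax (Se.ρ r) (gm r * φ b)) := by group
    _ = _ := by
        rw [xG_add, xG_add, map_add, mul_add]

section fix

variable (hφ2 : ∀ t, φ (φ t) = t)

include hφ2

/-- An element of the product of the root subgroups of `r`, `ρ r` fixed by the twist is `Y`. -/
lemma eq_Y {r : ℕ} (H : CommPair chevE6 r (Se.ρ r)) {u v : K}
    (hg : (twE φ ax).s (xG ax r u * xG ax (Se.ρ r) v) = xG ax r u * xG ax (Se.ρ r) v) :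
    xG ax r u * xG ax (Se.ρ r) v = Y φ ax r u := by
  have hr := H.1
  have hs := H.2.1
  rw [(twE φ ax).s_mul _ (xG_mem_group ax hr _) _ (xG_mem_group ax hs _), s_xG φ ax hr, s_xG φ ax hs,
    rho_rho r hr, H.comm ax] at hg
  have hn : Se.ρ r ≠ r := H.2.2.1
  have e1 : xG ax (Se.ρ r) (v + -(gm r * φ u)) = xG ax r (-u + gm (Se.ρ r) * φ v) := by
    rw [← xG_add, ← xG_add, ← xG_inv, ← xG_inv]
    calc xG ax (Se.ρ r) v * (xG ax (Se.ρ r) (gm r * φ u))⁻¹
        = (xG ax r u)⁻¹ * (xG ax r u * xG ax (Se.ρ r) v) * (xG ax (Se.ρ r) (gm r * φ u))⁻¹ := by group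
      _ = (xG ax r u)⁻¹ * xG ax r (gm (Se.ρ r) * φ v) := by
        rw [← hg]
        group
  have hv : v + -(gm r * φ u) = 0 := by
    by_contra hne
    exact hn (xG_eq_iff ax hE hE2 hs hr hne e1).1
  have hv' : v = gm r * φ u := by linear_combination hv
  rw [Y, hv']

/-- `Y` is fixed by the twist. -/
lemma Y_fix {r : ℕ} (H : CommPair chevE6 r (Se.ρ r)) (t : K) : (twE φ ax).s (Y φ ax r t) = Y φ ax r t := by
  have hr := H.1
  have hs := H.2.1
  rw [Y, (twE φ ax).s_mul _ (xG_mem_group ax hr _) _ (xG_mem_group ax hs _), s_xG φ ax hr, s_xG φ ax hs,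
    rho_rho r hr, H.comm ax]
  congr 2
  simp only [gm, gam_rho r hr]
  rw [map_mul, hφ2]
  have := gm_φ φ (r := r)
  simp only [gm] at this
  rw [this, ← mul_assoc]
  have h2 := gm_sq (K := K) r
  simp only [gm] at h2
  rw [h2, one_mul]

lemma Y_mem_Fx {r : ℕ} (H : CommPair chevE6 r (Se.ρ r)) (t : K) : Y φ ax r t ∈ (twE φ ax).Fx :=
  ⟨Subgroup.mul_mem _ (xG_mem_group ax H.1 _) (xG_mem_group ax H.2.1 _), Y_fix φ ax hφ2 H t⟩

/-- Conjugation of `Y` by elements of the fixed group permuting the root subgroups. -/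
lemma conj_Y {g : GL chevE6.Idx K} (hgF : g ∈ (twE φ ax).Fx) {π : Equiv.Perm (Fin chevE6.nroots)}
    {c : Fin chevE6.nroots → Kˣ} (hg : IsNor hE ax g π c) (r : Fin chevE6.nroots)
    (H : CommPair chevE6 r (Se.ρ r)) (H' : CommPair chevE6 (π r) (Se.ρ (π r))) (t : K) :
    g * Y φ ax r t * g⁻¹ = Y φ ax (π r) ((c r : K) * t) := by
  have e1 := hg.conj r t
  have e2 := hg.conj ((twE φ ax).ρ r) (gm r * φ t)
  have e3 := (twE φ ax).comm_rho_of_fix hE2 hgF hg r
  have hρv : (((twE φ ax).ρ r : Fin chevE6.nroots) : ℕ) = Se.ρ r := rfl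
  have hρv' : (((twE φ ax).ρ (π r) : Fin chevE6.nroots) : ℕ) = Se.ρ (π r) := rfl
  rw [e3, hρv, hρv'] at e2
  have e4 : g * Y φ ax r t * g⁻¹ = xG ax (π r) ((c r : K) * t) *
      xG ax (Se.ρ (π r)) ((c ((twE φ ax).ρ r) : K) * (gm r * φ t)) := by
    rw [← e1, ← e2, Y]
    group
  rw [e4]
  apply eq_Y φ ax hφ2 H'
  rw [← e4]
  have hm : g * Y φ ax r t * g⁻¹ ∈ (twE φ ax).Fx :=
    Subgroup.mul_mem _ (Subgroup.mul_mem _ hgF (Y_mem_Fx φ ax hφ2 H t)) (Subgroup.inv_mem _ hgF)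
  exact hm.2

end fix

/-! ### Certificates -/

/-- The steps. -/
inductive TStep where
  | pi (a : ℕ)
  | sss (a b r : ℕ) (N N' : ℤ)
  | ssl (a b l : ℕ) (N N' : ℤ)

/-- The state: roots with their `Y`, fixed roots with their root subgroup over the fixed field. -/
structure TSt where
  qc : List ℕ
  qf : List ℕ

/-- `a` or its image is known. -/
def hasC (σ : TSt) (a : ℕ) : Bool := σ.qc.contains a || σ.qc.contains (Se.ρ a)

/-- The check for the root `a`. -/
def shortB (a : ℕ) : Bool := decide (CommPair chevE6 a (Se.ρ a))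

/-- One step. -/
def TStep.run (l : List ℕ) (σ : TSt) : TStep → Option TSt
  | .pi a => if hasC σ a && decide (a < chevE6.nroots) && shortB a && shortB (wWord chevE6 l a) then
      some { σ with qc := wWord chevE6 l a :: σ.qc } else none
  | .sss a b r N N' => if hasC σ a && hasC σ b && decide (a < chevE6.nroots) && decide (b < chevE6.nroots) &&
        shortB a && shortB b && shortB r && (b != a) && (b != chevE6.neg a) &&
        (Se.ρ b != Se.ρ a) && (Se.ρ b != chevE6.neg (Se.ρ a)) &&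
        decide (CommPair chevE6 a (Se.ρ b)) && decide (CommPair chevE6 (Se.ρ a) b) &&
        decide (CommPair chevE6 r (Se.ρ b)) && decide (CommPair chevE6 r (Se.ρ a)) &&
        (N == 1 || N == -1) && (chevE6.commTerms a b == [(r, N, 1, 1)]) &&
        (chevE6.commTerms (Se.ρ a) (Se.ρ b) == [(Se.ρ r, N', 1, 1)]) then
      some { σ with qc := r :: σ.qc } else none
  | .ssl a b k N N' => if hasC σ a && hasC σ b && decide (a < chevE6.nroots) && decide (b < chevE6.nroots) &&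
        shortB a && shortB b && (Se.ρ b != a) && (Se.ρ b != chevE6.neg a) && (b != Se.ρ a) && (b != chevE6.neg (Se.ρ a)) &&
        decide (CommPair chevE6 a b) && decide (CommPair chevE6 (Se.ρ a) (Se.ρ b)) &&
        decide (CommPair chevE6 k (Se.ρ a)) && decide (CommPair chevE6 k (Se.ρ b)) &&
        (N == 1 || N == -1) && (N' * Se.γ a == N * Se.γ b) &&
        (chevE6.commTerms a (Se.ρ b) == [(k, N, 1, 1)]) &&
        (chevE6.commTerms (Se.ρ a) b == [(k, N', 1, 1)]) then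
      some { σ with qf := k :: σ.qf } else none

/-- Running. -/
def runT (l : List ℕ) : TSt → List TStep → Option TSt
  | σ, [] => some σ
  | σ, s :: ss => match s.run l σ with
    | some σ' => runT l σ' ss
    | none => none

/-- The final check. -/
def finalT (σ : TSt) : Bool :=
  [56, 15, 42, 29].all (hasC σ) && [46, 25, 39, 32].all σ.qf.contains

/-- The whole check. -/
def checkT (l : List ℕ) (σ : TSt) (ss : List TStep) : Bool :=
  l.all (fun i => decide (i < chevE6.rank)) && match runT l σ ss with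
    | some σ' => finalT σ'
    | none => false

variable (S : Subgroup (GL chevE6.Idx K))

/-- All `Y r t` are in `S`. -/
def QC (r : ℕ) : Prop := ∀ t : K, Y φ ax r t ∈ S

/-- All `x_r(t)`, `t` in the fixed field, are in `S`. -/
def QF (r : ℕ) : Prop := ∀ t : K, φ t = t → xG ax r t ∈ S

section steps

variable (hφ2 : ∀ t, φ (φ t) = t) (hS : S ≤ (twE φ ax).Fx)

include hφ2 in
lemma QC_rho {r : ℕ} (H : CommPair chevE6 r (Se.ρ r)) (h : QC φ ax S (Se.ρ r)) : QC φ ax S r := by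
  intro t
  have e := h (gm (Se.ρ r) * φ t)
  have g : gm (K := K) (Se.ρ r) = gm r := by simp only [gm, gam_rho r H.1]
  have e3 : gm r * φ (gm r * φ t) = t := by
    rw [map_mul, hφ2, gm_φ, ← mul_assoc, gm_sq, one_mul]
  have e2 : Y φ ax (Se.ρ r) (gm (Se.ρ r) * φ t) = Y φ ax r t := by
    simp only [Y]
    rw [rho_rho r H.1, g, e3]
    exact H.comm ax _ _
  rwa [e2] at e

include hφ2 in
lemma QC_of_has {σ : TSt} (hk : ∀ x ∈ σ.qc, QC φ ax S x) {a : ℕ} (ha : hasC σ a = true)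
    (H : CommPair chevE6 a (Se.ρ a)) : QC φ ax S a := by
  simp only [hasC, Bool.or_eq_true, List.contains_iff_mem] at ha
  rcases ha with h | h
  · exact hk a h
  · exact QC_rho φ ax S hφ2 H (hk _ h)

include hφ2 hS in
lemma QC_pi {l : List ℕ} (hl : ∀ i ∈ l, i < chevE6.rank) (hn : nw chevE6 ax l ∈ S) {a : ℕ} (ha : a < chevE6.nroots)
    (H : CommPair chevE6 a (Se.ρ a)) (H' : CommPair chevE6 (wWord chevE6 l a) (Se.ρ (wWord chevE6 l a)))
    (hQ : QC φ ax S a) : QC φ ax S (wWord chevE6 l a) := by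
  obtain ⟨c, hc⟩ := exists_isNor_nw hE hE2 ax hl
  intro t
  have hv := wPw_val hE hl ⟨a, ha⟩
  have e := conj_Y φ ax hφ2 (hS hn) hc ⟨a, ha⟩ H (by rw [hv]; exact H') ((c ⟨a, ha⟩ : K)⁻¹ * t)
  have e2 : (c ⟨a, ha⟩ : K) * ((c ⟨a, ha⟩ : K)⁻¹ * t) = t := by
    have := (c ⟨a, ha⟩).ne_zero
    field_simp
  rw [e2, hv] at e
  rw [← e]
  exact S.mul_mem (S.mul_mem hn (hQ _)) (S.inv_mem hn)

include hφ2 hS in
lemma QC_sss {a b r : ℕ} {N N' : ℤ} (Ha : CommPair chevE6 a (Se.ρ a)) (Hb : CommPair chevE6 b (Se.ρ b))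
    (Hr : CommPair chevE6 r (Se.ρ r)) (h1 : b ≠ a) (h3 : b ≠ chevE6.neg a) (h4 : Se.ρ b ≠ Se.ρ a)
    (h5 : Se.ρ b ≠ chevE6.neg (Se.ρ a)) (h6 : CommPair chevE6 a (Se.ρ b)) (h7 : CommPair chevE6 (Se.ρ a) b)
    (h8 : CommPair chevE6 r (Se.ρ b)) (h9 : CommPair chevE6 r (Se.ρ a)) (hN : N = 1 ∨ N = -1)
    (h10 : chevE6.commTerms a b = [(r, N, 1, 1)]) (h11 : chevE6.commTerms (Se.ρ a) (Se.ρ b) = [(Se.ρ r, N', 1, 1)])
    (hQa : QC φ ax S a) (hQb : QC φ ax S b) : QC φ ax S r := by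
  intro w
  have hN2 : (N : K) * N = 1 := by
    rcases hN with rfl | rfl <;> simp
  obtain ⟨t, ht⟩ : ∃ t : K, t = 1 := ⟨1, rfl⟩
  set u : K := -((N : K) * w) with hu
  have e1 := xG_comm ax Ha.1 Hb.1 h1 h3 t u
  have e2 := xG_comm ax Ha.2.1 Hb.2.1 h4 h5 (gm a * φ t) (gm b * φ u)
  have w1 : wordG ax (chevE6.commWord K a b t u) = xG ax r w := by
    simp only [commWord, h10, List.map_cons, List.map_nil, wordG, List.prod_cons, List.prod_nil, mul_one]
    congr 1
    simp only [pow_one, hu, ht]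
    linear_combination (w) * hN2
  set D := wordG ax (chevE6.commWord K (Se.ρ a) (Se.ρ b) (gm a * φ t) (gm b * φ u)) with hD
  have w2 : ∃ d, D = xG ax (Se.ρ r) d := by
    simp only [hD, commWord, h11, List.map_cons, List.map_nil, wordG, List.prod_cons, List.prod_nil, mul_one]
    exact ⟨_, rfl⟩
  obtain ⟨d, hd⟩ := w2
  rw [w1] at e1
  rw [hd] at e2
  have e3 := Cfsg.Agent.Lib.ChevTwo.Abs.comm_sss (A := xG ax a t) (A' := xG ax (Se.ρ a) (gm a * φ t))
    (B := xG ax b u) (B' := xG ax (Se.ρ b) (gm b * φ u)) (C := xG ax r w) (D := xG ax (Se.ρ r) d)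
    (h6.comm ax _ _) (h7.comm ax _ _) e1 e2 (h8.comm ax _ _).symm (h9.comm ax _ _).symm
  have hy := hQa t
  have hz := hQb u
  simp only [Y] at hy hz
  have e4 : xG ax (Se.ρ r) d * xG ax r w =
      ((xG ax a t * xG ax (Se.ρ a) (gm a * φ t)) * (xG ax b u * xG ax (Se.ρ b) (gm b * φ u)))⁻¹ *
      ((xG ax b u * xG ax (Se.ρ b) (gm b * φ u)) * (xG ax a t * xG ax (Se.ρ a) (gm a * φ t))) := by
    rw [e3]
    group
  have hm : xG ax (Se.ρ r) d * xG ax r w ∈ S := by
    rw [e4]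
    exact S.mul_mem (S.inv_mem (S.mul_mem hy hz)) (S.mul_mem hz hy)
  rw [Hr.comm ax] at hm
  have hf := (hS hm).2
  rw [eq_Y φ ax hφ2 Hr hf] at hm
  exact hm

include hφ2 hS in
lemma QF_ssl {a b k : ℕ} {N N' : ℤ} (Ha : CommPair chevE6 a (Se.ρ a)) (Hb : CommPair chevE6 b (Se.ρ b))
    (h1 : Se.ρ b ≠ a) (h3 : Se.ρ b ≠ chevE6.neg a) (h4 : b ≠ Se.ρ a) (h5 : b ≠ chevE6.neg (Se.ρ a))
    (h6 : CommPair chevE6 a b) (h7 : CommPair chevE6 (Se.ρ a) (Se.ρ b))
    (h8 : CommPair chevE6 k (Se.ρ a)) (h9 : CommPair chevE6 k (Se.ρ b)) (hN : N = 1 ∨ N = -1)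
    (hγ : N' * Se.γ a = N * Se.γ b)
    (h10 : chevE6.commTerms a (Se.ρ b) = [(k, N, 1, 1)]) (h11 : chevE6.commTerms (Se.ρ a) b = [(k, N', 1, 1)])
    {ν : K} (hν : ν + φ ν = 1) (hQa : QC φ ax S a) (hQb : QC φ ax S b) : QF φ ax S k := by
  intro w hw
  have hN2 : (N : K) * N = 1 := by
    rcases hN with rfl | rfl <;> simp
  have hγ2 : gm (K := K) b * gm b = 1 := gm_sq b
  have hγ' : (N' : K) * gm a = N * gm b := by
    have := congrArg (Int.cast (R := K)) hγ
    simpa [gm] using this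
  set e : K := (N : K) * gm b with he
  have he2 : e * e = 1 := by
    rw [he]
    linear_combination (gm (K := K) b * gm b) * hN2 + hγ2
  have heφ : φ e = e := by
    rw [he, map_mul, gm_φ, map_intCast]
  obtain ⟨u, hu⟩ : ∃ u : K, u = 1 := ⟨1, rfl⟩
  set t : K := -(e * (w * ν)) with ht
  have hφu : φ u = 1 := by rw [hu, map_one]
  have htφ : t + φ t = -(e * w) := by
    rw [ht, map_neg, map_mul φ e, map_mul φ w, heφ, hw]
    linear_combination (-(e * w)) * hν
  have e1 := xG_comm ax Ha.1 Hb.2.1 h1 h3 t (gm b * φ u)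
  have e2 := xG_comm ax Ha.2.1 Hb.1 h4 h5 (gm a * φ t) u
  set c₁ : K := (N : K) * (-t) * (gm b * φ u) with hc₁
  set c₂ : K := (N' : K) * (-(gm a * φ t)) * u with hc₂
  have w1 : wordG ax (chevE6.commWord K a (Se.ρ b) t (gm b * φ u)) = xG ax k c₁ := by
    simp only [commWord, h10, List.map_cons, List.map_nil, wordG, List.prod_cons, List.prod_nil, mul_one, pow_one, hc₁]
  have w2 : wordG ax (chevE6.commWord K (Se.ρ a) b (gm a * φ t) u) = xG ax k c₂ := by
    simp only [commWord, h11, List.map_cons, List.map_nil, wordG, List.prod_cons, List.prod_nil, mul_one, pow_one, hc₂]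
  rw [w1] at e1
  rw [w2] at e2
  have e3 := Cfsg.Agent.Lib.ChevTwo.Abs.comm_ssl (A := xG ax a t) (A' := xG ax (Se.ρ a) (gm a * φ t))
    (B := xG ax b u) (B' := xG ax (Se.ρ b) (gm b * φ u)) (C := xG ax k c₁) (D := xG ax k c₂)
    (h6.comm ax _ _) (h7.comm ax _ _) e1 e2 (h8.comm ax _ _).symm (h9.comm ax _ _).symm
  have hy := hQa t
  have hz := hQb u
  simp only [Y] at hy hz
  have e4 : xG ax k c₂ * xG ax k c₁ =
      ((xG ax a t * xG ax (Se.ρ a) (gm a * φ t)) * (xG ax b u * xG ax (Se.ρ b) (gm b * φ u)))⁻¹ *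
      ((xG ax b u * xG ax (Se.ρ b) (gm b * φ u)) * (xG ax a t * xG ax (Se.ρ a) (gm a * φ t))) := by
    rw [e3]
    group
  have hm : xG ax k c₂ * xG ax k c₁ ∈ S := by
    rw [e4]
    exact S.mul_mem (S.inv_mem (S.mul_mem hy hz)) (S.mul_mem hz hy)
  rw [xG_add] at hm
  have hval : c₂ + c₁ = w := by
    rw [hc₁, hc₂, hφu, hu, mul_one, mul_one]
    have h12 : (N' : K) * (-(gm a * φ t)) = -(e * φ t) := by
      rw [he]
      linear_combination (-φ t) * hγ'
    rw [h12, he]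
    have h13 : (N : K) * -t * gm b = -(e * t) := by
      rw [he]
      ring
    rw [← he, h13]
    have h14 : e * (t + φ t) = -(e * e) * w := by
      rw [htφ]
      ring
    rw [he2] at h14
    linear_combination (-1 : K) * h14
  rwa [hval] at hm

/-- The invariant. -/
structure TInv (σ : TSt) : Prop where
  hc : ∀ x ∈ σ.qc, QC φ ax S x
  hf : ∀ x ∈ σ.qf, QF φ ax S x

include hφ2 hS in
lemma TStep.run_sound {l : List ℕ} (hl : ∀ i ∈ l, i < chevE6.rank) (hn : nw chevE6 ax l ∈ S)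
    {ν : K} (hν : ν + φ ν = 1) {σ σ' : TSt} {s : TStep} (hI : TInv φ ax S σ)
    (hrun : s.run l σ = some σ') : TInv φ ax S σ' := by
  cases s with
  | pi a =>
    simp only [TStep.run] at hrun
    split_ifs at hrun with hc
    simp only [Bool.and_eq_true, decide_eq_true_eq, shortB] at hc
    obtain ⟨⟨⟨h1, h3⟩, h4⟩, h5⟩ := hc
    simp only [Option.some.injEq] at hrun
    subst hrun
    refine ⟨?_, hI.hf⟩
    intro x hx
    rcases List.mem_cons.mp hx with rfl | hx
    · exact QC_pi φ ax S hφ2 hS hl hn h3 h4 h5 (QC_of_has φ ax S hφ2 hI.hc h1 h4)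
    · exact hI.hc x hx
  | sss a b r N N' =>
    simp only [TStep.run] at hrun
    split_ifs at hrun with hc
    simp only [Bool.and_eq_true, decide_eq_true_eq, shortB, bne_iff_ne, Bool.or_eq_true, beq_iff_eq] at hc
    obtain ⟨⟨⟨⟨⟨⟨⟨⟨⟨⟨⟨⟨⟨⟨⟨⟨⟨h1, h3⟩, h4⟩, h5⟩, h6⟩, h7⟩, h8⟩, h9⟩, h10⟩, h11⟩, h12⟩, h13⟩, h14⟩, h15⟩, h16⟩, h17⟩, h18⟩, h19⟩ := hc
    simp only [Option.some.injEq] at hrun
    subst hrun
    refine ⟨?_, hI.hf⟩
    intro x hx
    rcases List.mem_cons.mp hx with rfl | hx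
    · exact QC_sss φ ax S hφ2 hS h6 h7 h8 h9 h10 h11 h12 h13 h14 h15 h16 h17 h18 h19
        (QC_of_has φ ax S hφ2 hI.hc h1 h6) (QC_of_has φ ax S hφ2 hI.hc h3 h7)
    · exact hI.hc x hx
  | ssl a b k N N' =>
    simp only [TStep.run] at hrun
    split_ifs at hrun with hc
    simp only [Bool.and_eq_true, decide_eq_true_eq, shortB, bne_iff_ne, Bool.or_eq_true, beq_iff_eq] at hc
    obtain ⟨⟨⟨⟨⟨⟨⟨⟨⟨⟨⟨⟨⟨⟨⟨⟨⟨h1, h3⟩, h4⟩, h5⟩, h6⟩, h7⟩, h8⟩, h9⟩, h10⟩, h11⟩, h12⟩, h13⟩, h14⟩, h15⟩, h16⟩, h17⟩, h18⟩, h19⟩ := hc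
    simp only [Option.some.injEq] at hrun
    subst hrun
    refine ⟨hI.hc, ?_⟩
    intro x hx
    rcases List.mem_cons.mp hx with rfl | hx
    · exact QF_ssl φ ax S hφ2 hS h6 h7 h8 h9 h10 h11 h12 h13 h14 h15 h16 h17 h18 h19 hν
        (QC_of_has φ ax S hφ2 hI.hc h1 h6) (QC_of_has φ ax S hφ2 hI.hc h3 h7)
    · exact hI.hf x hx

include hφ2 hS in
lemma runT_sound {l : List ℕ} (hl : ∀ i ∈ l, i < chevE6.rank) (hn : nw chevE6 ax l ∈ S)
    {ν : K} (hν : ν + φ ν = 1) {σ σ' : TSt} {ss : List TStep} (hI : TInv φ ax S σ)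
    (hrun : runT l σ ss = some σ') : TInv φ ax S σ' := by
  induction ss generalizing σ with
  | nil =>
    simp only [runT, Option.some.injEq] at hrun
    exact hrun ▸ hI
  | cons s ss ih =>
    simp only [runT] at hrun
    cases hs : s.run l σ with
    | none => simp [hs] at hrun
    | some σ₁ =>
      simp only [hs] at hrun
      exact ih (TStep.run_sound φ ax S hφ2 hS hl hn hν hI hs) hrun

end steps


/-! ### The generators -/

/-- The certificate. -/
theorem chkT : checkT [1, 3, 0, 5, 2, 4] ⟨[42, 10], []⟩ [.pi 42, .pi 10, .pi 7, .pi 3, .pi 4, .sss 37 12 13 (-1) (1), .pi 12, .pi 13, .pi 9, .pi 29, .ssl 13 49 46 (-1) (1), .ssl 28 37 32 (-1) (1), .sss 37 61 62 (1) (1), .pi 28, .pi 49, .pi 52, .ssl 9 54 39 (-1) (-1), .sss 13 43 15 (1) (-1), .sss 37 54 55 (1) (1), .pi 14, .pi 55, .ssl 9 45 25 (-1) (-1)] = true := by decide +kernel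

theorem short42 : CommPair chevE6 42 (Se.ρ 42) := by decide +kernel
theorem short10 : CommPair chevE6 10 (Se.ρ 10) := by decide +kernel
theorem wW42 : wWord chevE6 [1, 3, 0, 5, 2, 4] 42 = 10 := by decide +kernel
theorem rho42 : Se.ρ 42 = 37 := by decide +kernel
theorem gam42 : Se.γ 42 = 1 := by decide +kernel
theorem pr56 : pair chevE6 56 42 = -1 := by decide +kernel
theorem pr36 : pair chevE6 36 42 = 0 := by decide +kernel
theorem pr56' : pair chevE6 56 10 = -1 := by decide +kernel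
theorem pr36' : pair chevE6 36 10 = 0 := by decide +kernel
theorem pr56r : pair chevE6 56 37 = 0 := by decide +kernel
theorem pr36r : pair chevE6 36 37 = -1 := by decide +kernel

lemma nw_eq : nw chevE6 ax [1, 3, 0, 5, 2, 4] = nE ax 0 * nE ax 1 * nE ax 2 * nE ax 3 := by
  simp only [nE]
  show nw chevE6 ax [1, 3, 0, 5, 2, 4] = nw chevE6 ax [1] * nw chevE6 ax [3] * nw chevE6 ax [0, 5] * nw chevE6 ax [2, 4]
  simp only [nw_cons, nw_nil, mul_one, mul_assoc]

section main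

variable [Finite K] (hφ : ∀ t, φ t = t ^ q) (hφ2 : ∀ t, φ (φ t) = t)

include hφ hφ2

/-- A pair word. -/
lemma Y_mem_G1 {r r' : ℕ} (hm : (r, r') ∈ [(e6p1, e6p6), (e6m1, e6m6), (e6p3, e6p5), (e6m3, e6m5)]) (hρ : Se.ρ r = r')
    (hγ : Se.γ r = 1) (t : K) : Y φ ax r t ∈ twistedE6 K q := by
  have h1 := mem_pair (q := q) ax hm t
  simp only at h1
  rw [Y, hρ, ← hφ] at *
  simpa [gm, hγ] using h1

/-- From a certificate to the whole group. -/
theorem le_of_check {S : Subgroup (GL chevE6.Idx K)} (hS : S ≤ (twE φ ax).Fx) {l : List ℕ} {σ : TSt} {ss : List TStep}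
    (hn : nw chevE6 ax l ∈ S) {ν : K} (hν : ν + φ ν = 1) (hI : TInv φ ax S σ) (hC : checkT l σ ss = true) :
    twistedE6 K q ≤ S := by
  simp only [checkT, Bool.and_eq_true, List.all_eq_true, decide_eq_true_eq] at hC
  obtain ⟨hl, hC⟩ := hC
  cases hr : runT l σ ss with
  | none => simp [hr] at hC
  | some σ' =>
    simp only [hr] at hC
    have hI' := runT_sound φ ax S hφ2 hS hl hn hν hI hr
    simp only [finalT, Bool.and_eq_true, List.all_eq_true, List.contains_iff_mem] at hC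
    obtain ⟨hc1, hc2⟩ := hC
    have qc : ∀ {r : ℕ}, r ∈ [56, 15, 42, 29] → CommPair chevE6 r (Se.ρ r) → QC φ ax S r := fun {r} hr H =>
      QC_of_has φ ax S hφ2 hI'.hc (hc1 r hr) H
    have qf : ∀ {r : ℕ}, r ∈ [46, 25, 39, 32] → QF φ ax S r := fun {r} hr => hI'.hf r (hc2 r hr)
    rw [twistedE6, genSubgroup, Subgroup.closure_le]
    rintro g ⟨w, hw, hg⟩
    rcases hw with ⟨t, ht, r, hr, rfl⟩ | ⟨t, rs, hrs, rfl⟩
    · have e : g = xG ax r t := Units.ext (by rw [hg, word_single, xG_val])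
      rw [e]
      refine qf hr t ?_
      rw [hφ, ht]
    · have e : g = xG ax rs.1 t * xG ax rs.2 (t ^ q) := Units.ext (by rw [hg, word_pair]; simp)
      rw [e]
      simp only [List.mem_cons, List.not_mem_nil, or_false] at hrs
      have hγ : ∀ r, r = 56 ∨ r = 15 ∨ r = 42 ∨ r = 29 → gm (K := K) r = 1 := by
        rintro r (rfl | rfl | rfl | rfl)
        · have : Se.γ 56 = 1 := by decide +kernel
          simp [gm, this]
        · have : Se.γ 15 = 1 := by decide +kernel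
          simp [gm, this]
        · have : Se.γ 42 = 1 := by decide +kernel
          simp [gm, this]
        · have : Se.γ 29 = 1 := by decide +kernel
          simp [gm, this]
      rcases hrs with rfl | rfl | rfl | rfl
      · have := qc (r := 56) (by decide) (by decide +kernel) t
        have hρ : Se.ρ 56 = 36 := by decide +kernel
        rw [Y, hρ, hγ 56 (by simp), one_mul, hφ] at this
        exact this
      · have := qc (r := 15) (by decide) (by decide +kernel) t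
        have hρ : Se.ρ 15 = 35 := by decide +kernel
        rw [Y, hρ, hγ 15 (by simp), one_mul, hφ] at this
        exact this
      · have := qc (r := 42) (by decide) (by decide +kernel) t
        have hρ : Se.ρ 42 = 37 := by decide +kernel
        rw [Y, hρ, hγ 42 (by simp), one_mul, hφ] at this
        exact this
      · have := qc (r := 29) (by decide) (by decide +kernel) t
        have hρ : Se.ρ 29 = 34 := by decide +kernel
        rw [Y, hρ, hγ 29 (by simp), one_mul, hφ] at this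
        exact this

end main

/-- The element of trace one. -/
lemma exists_nu (hφ2 : ∀ t, φ (φ t) = t) (hne : ∃ x, φ x ≠ x) : ∃ ν : K, ν + φ ν = 1 := by
  by_cases h2 : (2 : K) = 0
  · obtain ⟨x, hx⟩ := hne
    have hδ : x + φ x ≠ 0 := by
      intro e
      apply hx
      linear_combination e - x * h2
    refine ⟨x / (x + φ x), ?_⟩
    rw [map_div₀, map_add, hφ2, add_comm (φ x) x]
    field_simp
  · refine ⟨2⁻¹, ?_⟩
    rw [map_inv₀, map_ofNat]
    field_simp
    norm_num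

/-- The main theorem. -/
theorem exists_two {K : Type*} [Field K] [Fintype K] {q : ℕ} (hq : IsPrimePow q) (hK : Fintype.card K = q ^ 2) :
    ∃ a b : ↥(twistedE6 K q), Subgroup.closure ({a, b} : Set ↥(twistedE6 K q)) = ⊤ := by
  obtain ⟨φ, hφ, hφ2⟩ := exists_φ hq hK
  have ax : Ax chevE6 K := Cfsg.Agent.Lib.Lie.AxOf.ax_of_mem hmemE6
  obtain ⟨c, hc⟩ := IsCyclic.exists_generator (α := Kˣ)
  have hq2 : 2 ≤ q := hq.two_le
  have hcard : Nat.card Kˣ = q ^ 2 - 1 := by
    rw [Nat.card_units, Nat.card_eq_fintype_card, hK]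
  have hord : orderOf c = q ^ 2 - 1 := by
    rw [orderOf_eq_card_of_forall_mem_zpowers hc, hcard]
  have hc1 : (c : K) ≠ 1 := by
    intro e
    have e1 : c = 1 := Units.ext e
    rw [e1, orderOf_one] at hord
    have : 4 ≤ q ^ 2 := by nlinarith
    omega
  have hne : ∃ x, φ x ≠ x := by
    refine ⟨c, fun e => ?_⟩
    rw [hφ] at e
    have e2 : c ^ q = c := Units.ext (by simpa using e)
    have e3 : c ^ (q - 1) = 1 := by
      have : c ^ (q - 1) * c = c := by
        rw [← pow_succ, Nat.sub_add_cancel (by omega), e2]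
      exact mul_eq_right.mp this
    have e4 := orderOf_dvd_of_pow_eq_one e3
    rw [hord] at e4
    have e5 := Nat.le_of_dvd (by omega) e4
    have e6 : q ^ 2 = q * q := by ring
    have : q * q ≥ 2 * q := Nat.mul_le_mul_right q hq2
    omega
  obtain ⟨ν, hν⟩ := exists_nu φ hφ2 hne
  set n := nw chevE6 ax [1, 3, 0, 5, 2, 4] with hn
  set y := Y φ ax 42 1 with hy
  set c' : Kˣ := Units.map (φ : K →* K) c with hc'
  have hc'v : (c' : K) = φ c := rfl
  set h := hG ax 56 (c : K) * hG ax 36 (φ c) with hh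
  have hy₁ : y ∈ twistedE6 K q := Y_mem_G1 φ ax hφ hφ2 (r' := 37) (by decide) rho42 gam42 1
  have hl : ∀ i ∈ [1, 3, 0, 5, 2, 4], i < chevE6.rank := by decide
  have hn₁ : n ∈ twistedE6 K q := by
    rw [hn, nw_eq]
    exact Subgroup.mul_mem _ (Subgroup.mul_mem _ (Subgroup.mul_mem _ (n_mem φ hφ hφ2 ax 0) (n_mem φ hφ hφ2 ax 1))
      (n_mem φ hφ hφ2 ax 2)) (n_mem φ hφ hφ2 ax 3)
  have hh₁ : h ∈ twistedE6 K q := Cfsg.Agent.Lib.Twisted.E6H.hh_mem φ hφ hφ2 ax (p := 56) (p' := 36) (by decide) (by decide +kernel)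
    (by decide +kernel) (by decide +kernel) (by decide +kernel) (by decide +kernel) (c : K)
  have hFx : twistedE6 K q ≤ (twE φ ax).Fx := G1_le φ hφ hφ2 ax
  set w := hW chevE6 56 c * hW chevE6 36 c' with hw
  have hh_tor : h = tor chevE6 w := by
    rw [hh, hw, tor_mul, ← hG_eq_tor ax hE (by decide +kernel) c, ← hG_eq_tor ax hE (by decide +kernel) c', hc'v]
  have hhN : IsNor hE ax h 1 (fun s => chi chevE6 w s) := by
    rw [hh_tor]
    exact isNor_tor hE ax w
  have hchi : ∀ {s : ℕ}, s < chevE6.nroots → chi chevE6 w s = c ^ pair chevE6 56 s * c' ^ pair chevE6 36 s := by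
    intro s hs
    rw [hw, chi_mul, chi_hW hE _ _ hs, chi_hW hE _ _ hs]
  have hhH : h ∈ chevE6.diagonalSubgroup K := Subgroup.mul_mem _ (hG_mem_diagonal ax (by decide +kernel) c.ne_zero)
    (hG_mem_diagonal ax (by decide +kernel) (c').ne_zero)
  obtain ⟨γ, hγ⟩ := exists_isNor_nw hE hE2 ax hl
  set S := Subgroup.closure {n * y, h} with hS
  have ha : n * y ∈ S := Subgroup.subset_closure (by simp)
  have hb : h ∈ S := Subgroup.subset_closure (by simp)
  have hS₁ : S ≤ twistedE6 K q := by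
    rw [hS, Subgroup.closure_le]
    rintro x (rfl | rfl)
    · exact Subgroup.mul_mem _ hn₁ hy₁
    · exact hh₁
  have hSF : S ≤ (twE φ ax).Fx := hS₁.trans hFx
  have h42 : (42 : ℕ) < chevE6.nroots := by decide +kernel
  have h10 : (10 : ℕ) < chevE6.nroots := by decide +kernel
  have hv : ((wPw hE [1, 3, 0, 5, 2, 4] ⟨42, h42⟩ : Fin chevE6.nroots) : ℕ) = 10 := by
    rw [wPw_val hE hl]
    exact wW42
  have hnY : ∀ t, n * Y φ ax 42 t * n⁻¹ = Y φ ax 10 ((γ ⟨42, h42⟩ : K) * t) := by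
    intro t
    have := conj_Y φ ax hφ2 (hFx hn₁) hγ ⟨42, h42⟩ short42 (by rw [hv]; exact short10) t
    rwa [hv] at this
  have hhY : ∀ t, h * Y φ ax 42 t * h⁻¹ = Y φ ax 42 ((c : K)⁻¹ * t) := by
    intro t
    have := conj_Y φ ax hφ2 (hFx hh₁) hhN ⟨42, h42⟩ short42 short42 t
    simp only [Equiv.Perm.coe_one, id_eq] at this
    rw [this, hchi h42, pr56, pr36]
    simp
  have hhY' : ∀ t, h * Y φ ax 10 t * h⁻¹ = Y φ ax 10 ((c : K)⁻¹ * t) := by
    intro t
    have := conj_Y φ ax hφ2 (hFx hh₁) hhN ⟨10, h10⟩ short10 short10 t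
    simp only [Equiv.Perm.coe_one, id_eq] at this
    rw [this, hchi h10, pr56', pr36']
    simp
  have hinvne : (c : K)⁻¹ ≠ 1 := by
    intro e
    apply hc1
    have := inv_eq_one.mp e
    exact this
  have hcomm : (n * h * n⁻¹) * h = h * (n * h * n⁻¹) :=
    diagonal_comm ax hE (nw_conj_H hE hE2 ax hl hhH) hhH
  have hgen : ∀ u : Kˣ, u ∈ Subgroup.zpowers c⁻¹ := by
    intro u
    obtain ⟨k, hk⟩ := hc u
    exact ⟨-k, by simpa using hk⟩
  obtain ⟨hnS, hQ, hQ'⟩ := Cfsg.Agent.Lib.ChevTwo.Abs.core S (Y φ ax 42) (Y φ ax 10) (Y_add φ ax short42) (Y_add φ ax short10)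
    (Y_zero φ ax 42) (Y_zero φ ax 10) hnY (γ ⟨42, h42⟩).ne_zero hhY (ψu := c⁻¹) (by simp) hhY' hcomm hinvne hinvne hgen ha hb
  have hle : twistedE6 K q ≤ S := le_of_check φ ax hφ hφ2 hSF hnS hν (σ := ⟨[42, 10], []⟩)
    ⟨fun x hx => by
      simp only [List.mem_cons, List.not_mem_nil, or_false] at hx
      rcases hx with rfl | rfl
      · exact hQ
      · exact hQ', fun x hx => by simp at hx⟩ chkT
  exact exists_two_of_le _ (Subgroup.mul_mem _ hn₁ hy₁) hh₁ hle

end Cfsg.Agent.Lib.ChevTwo.E6Tw
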